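import Mathlib

set_option autoImplicit false

namespace Cfsg.Agent.Lib.Helper1

theorem ap2_binom {S : Type*} [Ring S] (N : S) (p : ℕ) (hp : p.Prime) (h5 : 3 < p)
    (h1 : (p : S) * (N * N) = 0) (h2 : N ^ 4 = 0) : (N + 1) ^ p = 1 + (p : S) * N := by
  rw [(Commute.one_right N).add_pow p]
  rw [Finset.sum_eq_add (0 : ℕ) 1 (by norm_num)]
  · simp only [pow_zero, one_pow, mul_one, Nat.choose_zero_right, Nat.cast_one, pow_one,
      Nat.choose_one_right]
    rw [Nat.cast_comm]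
  · intro c hc hc01
    rw [one_pow, mul_one]
    have hc2 : 2 ≤ c := by omega
    by_cases hcp : c = p
    · rw [hcp]
      have h3 : N ^ p = 0 := by
        have h4 : p = 4 + (p - 4) := by omega
        rw [h4, pow_add, h2, zero_mul]
      rw [h3, zero_mul]
    · have hlt : c < p := by have := Finset.mem_range.mp hc; omega
      obtain ⟨q, hq⟩ := hp.dvd_choose_self (by omega : c ≠ 0) hlt
      rw [hq, Nat.cast_mul]
      have h3 : N ^ c = N ^ (c - 2) * (N * N) := by
        have h4 : c = (c - 2) + 2 := by omega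
        conv_lhs => rw [h4]
        rw [pow_add, pow_two]
      rw [h3]
      have h5 : N ^ (c - 2) * (N * N) * ((p : S) * (q : S)) =
          N ^ (c - 2) * ((p : S) * (N * N)) * (q : S) := by
        rw [Nat.cast_comm p (N * N)]; simp only [mul_assoc]
      rw [h5, h1, mul_zero, zero_mul]
  · intro h; exact absurd (Finset.mem_range.mpr (by omega)) h
  · intro h; exact absurd (Finset.mem_range.mpr (by omega)) h

theorem ap2_ker {p : ℕ} [Fact p.Prime] (x : ZMod (p ^ 2))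
    (h : ZMod.castHom (dvd_pow_self p two_ne_zero) (ZMod p) x = 0) :
    ∃ y : ZMod (p ^ 2), x = (p : ZMod (p ^ 2)) * y := by
  haveI : NeZero (p ^ 2) := ⟨pow_ne_zero 2 (Fact.out : p.Prime).ne_zero⟩
  rw [ZMod.castHom_apply, ← ZMod.natCast_val] at h
  have h1 := (ZMod.natCast_eq_zero_iff _ _).mp h
  obtain ⟨q, hq⟩ := h1
  refine ⟨(q : ZMod (p ^ 2)), ?_⟩
  rw [← Nat.cast_mul, ← hq, ZMod.natCast_zmod_val]

theorem ap2_tors {p : ℕ} [Fact p.Prime] (s : ZMod (p ^ 2))
    (h : (p : ZMod (p ^ 2)) * s = 0) : ∃ s' : ZMod (p ^ 2), s = (p : ZMod (p ^ 2)) * s' := by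
  haveI : NeZero (p ^ 2) := ⟨pow_ne_zero 2 (Fact.out : p.Prime).ne_zero⟩
  have hpp : p.Prime := Fact.out
  have h1 : ((p * s.val : ℕ) : ZMod (p ^ 2)) = 0 := by
    rw [Nat.cast_mul, ZMod.natCast_zmod_val]; exact h
  have h2 := (ZMod.natCast_eq_zero_iff _ _).mp h1
  have h2' : p * p ∣ p * s.val := by rw [← pow_two]; exact h2
  have h3 : p ∣ s.val := (Nat.mul_dvd_mul_iff_left hpp.pos).mp h2'
  obtain ⟨q, hq⟩ := h3
  refine ⟨(q : ZMod (p ^ 2)), ?_⟩
  rw [← Nat.cast_mul, ← hq, ZMod.natCast_zmod_val]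

theorem ap2_mat {p : ℕ} [Fact p.Prime] (hp : 3 < p)
    (M : Matrix (Fin 2) (Fin 2) (ZMod (p ^ 2))) (hM : M ^ p = 1) :
    (p : Matrix (Fin 2) (Fin 2) (ZMod (p ^ 2))) * (M - 1) = 0 := by
  have hpp : p.Prime := Fact.out
  let ρ : ZMod (p ^ 2) →+* ZMod p := ZMod.castHom (dvd_pow_self p two_ne_zero) (ZMod p)
  obtain ⟨N, hN⟩ : ∃ N, N = M - 1 := ⟨_, rfl⟩
  obtain ⟨B, hB⟩ : ∃ B, B = ρ.mapMatrix N := ⟨_, rfl⟩
  have hBp : B ^ p = 0 := by
    have h1 : B = ρ.mapMatrix M - 1 := by rw [hB, hN, map_sub, map_one]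
    rw [h1, sub_pow_char_of_commute p (Commute.one_right _), one_pow, ← map_pow, hM, map_one,
      sub_self]
  have hCH : B * B = (B 0 0 + B 1 1) • B -
      (B 0 0 * B 1 1 - B 0 1 * B 1 0) • (1 : Matrix (Fin 2) (Fin 2) (ZMod p)) := by
    ext i j
    fin_cases i <;> fin_cases j <;>
      simp [Matrix.mul_apply, Fin.sum_univ_two, Matrix.one_apply] <;> ring
  have hdet : B 0 0 * B 1 1 - B 0 1 * B 1 0 = 0 := by
    have h1 := Matrix.det_pow B p
    rw [hBp, Matrix.det_zero, Matrix.det_fin_two] at h1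
    exact (pow_eq_zero_iff hpp.ne_zero).mp h1.symm
  have hBB : B * B = (B 0 0 + B 1 1) • B := by rw [hCH, hdet, zero_smul, sub_zero]
  have hpow : ∀ k : ℕ, B ^ (k + 1) = (B 0 0 + B 1 1) ^ k • B := by
    intro k
    induction k with
    | zero => simp
    | succ k ih => rw [pow_succ B, ih, Matrix.smul_mul, hBB, smul_smul, ← pow_succ]
  have htr : B 0 0 + B 1 1 = 0 := by
    by_contra hne
    have h1 := hpow (p - 1)
    rw [show p - 1 + 1 = p by omega, hBp] at h1
    have h2 : ∀ i j, B i j = 0 := by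
      intro i j
      have h3 := congrFun (congrFun h1 i) j
      rw [Matrix.smul_apply, Matrix.zero_apply, smul_eq_mul] at h3
      rcases mul_eq_zero.mp h3.symm with h | h
      · exact absurd ((pow_eq_zero_iff (by omega)).mp h) hne
      · exact h
    apply hne; rw [h2 0 0, h2 1 1, add_zero]
  have hBB0 : B * B = 0 := by rw [hBB, htr, zero_smul]
  have hNN : ∀ i j, ∃ y, (N * N) i j = (p : ZMod (p ^ 2)) * y := by
    intro i j
    have h2 : ρ.mapMatrix (N * N) = 0 := by rw [map_mul, ← hB]; exact hBB0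
    have h3 := congrFun (congrFun h2 i) j
    rw [RingHom.mapMatrix_apply, Matrix.map_apply, Matrix.zero_apply] at h3
    exact ap2_ker _ h3
  choose Y hY using hNN
  have hNNY : N * N = (p : ZMod (p ^ 2)) • Matrix.of Y := by
    ext i j; rw [hY, Matrix.smul_apply, Matrix.of_apply, smul_eq_mul]
  have hp2 : (p : ZMod (p ^ 2)) * (p : ZMod (p ^ 2)) = 0 := by
    rw [← Nat.cast_mul, ← pow_two]; exact ZMod.natCast_self _
  have h1 : (p : Matrix (Fin 2) (Fin 2) (ZMod (p ^ 2))) * (N * N) = 0 := by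
    rw [← nsmul_eq_mul]
    ext i j
    rw [Matrix.smul_apply, nsmul_eq_mul, hNNY, Matrix.smul_apply, Matrix.of_apply, smul_eq_mul,
      ← mul_assoc, hp2, zero_mul]
    rfl
  have h2 : N ^ 4 = 0 := by
    have h3 : N ^ 4 = (N * N) * (N * N) := by
      rw [show (4 : ℕ) = 2 + 2 from rfl, pow_add, pow_two N]
    rw [h3, hNNY, Matrix.smul_mul, Matrix.mul_smul, smul_smul, hp2, zero_smul]
  have h3 := ap2_binom N p hpp hp h1 h2
  have h4 : N + 1 = M := by rw [hN]; abel
  rw [h4, hM] at h3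
  rw [← hN]
  exact left_eq_add.mp h3

theorem ap2_hom_eq_act (n : ℕ) [NeZero n] (F : ZMod n × ZMod n →+ ZMod n × ZMod n)
    (v : ZMod n × ZMod n) :
    F v = ((F (1, 0)).1 * v.1 + (F (0, 1)).1 * v.2, (F (1, 0)).2 * v.1 + (F (0, 1)).2 * v.2) := by
  obtain ⟨s, t⟩ := v
  have h1 : ((s, t) : ZMod n × ZMod n) =
      s.val • ((1, 0) : ZMod n × ZMod n) + t.val • ((0, 1) : ZMod n × ZMod n) := by
    apply Prod.ext
    · simp [ZMod.natCast_zmod_val]
    · simp [ZMod.natCast_zmod_val]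
  conv_lhs => rw [h1]
  rw [map_add, map_nsmul, map_nsmul]
  apply Prod.ext
  · show (s.val • F (1, 0) + t.val • F (0, 1)).1 = _
    rw [Prod.fst_add, Prod.smul_fst, Prod.smul_fst, nsmul_eq_mul, nsmul_eq_mul,
      ZMod.natCast_zmod_val, ZMod.natCast_zmod_val]
    ring
  · show (s.val • F (1, 0) + t.val • F (0, 1)).2 = _
    rw [Prod.snd_add, Prod.smul_snd, Prod.smul_snd, nsmul_eq_mul, nsmul_eq_mul,
      ZMod.natCast_zmod_val, ZMod.natCast_zmod_val]
    ring

theorem ap2_main {p : ℕ} [Fact p.Prime] (hp : 3 < p)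
    (a : MulAut (Multiplicative (ZMod (p ^ 2) × ZMod (p ^ 2)))) (ha : orderOf a = p)
    (x : Multiplicative (ZMod (p ^ 2) × ZMod (p ^ 2))) (hx : orderOf x = p) : a x = x := by
  haveI : NeZero (p ^ 2) := ⟨pow_ne_zero 2 (Fact.out : p.Prime).ne_zero⟩
  let F : ZMod (p ^ 2) × ZMod (p ^ 2) →+ ZMod (p ^ 2) × ZMod (p ^ 2) :=
    { toFun := fun v => Multiplicative.toAdd (a (Multiplicative.ofAdd v))
      map_zero' := by
        show Multiplicative.toAdd (a 1) = 0
        rw [map_one]; rfl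
      map_add' := by
        intro v w
        show Multiplicative.toAdd (a (Multiplicative.ofAdd v * Multiplicative.ofAdd w)) = _
        rw [map_mul]; rfl }
  obtain ⟨M, hact⟩ : ∃ M : Matrix (Fin 2) (Fin 2) (ZMod (p ^ 2)), ∀ v : ZMod (p ^ 2) × ZMod (p ^ 2),
      F v = (M 0 0 * v.1 + M 0 1 * v.2, M 1 0 * v.1 + M 1 1 * v.2) :=
    ⟨Matrix.of ![![(F (1, 0)).1, (F (0, 1)).1], ![(F (1, 0)).2, (F (0, 1)).2]], fun v => by
      rw [ap2_hom_eq_act (p ^ 2) F v]; rfl⟩
  have hpow : ∀ k : ℕ, ∀ v : ZMod (p ^ 2) × ZMod (p ^ 2),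
      Multiplicative.toAdd ((a ^ k) (Multiplicative.ofAdd v)) =
        ((M ^ k) 0 0 * v.1 + (M ^ k) 0 1 * v.2, (M ^ k) 1 0 * v.1 + (M ^ k) 1 1 * v.2) := by
    intro k
    induction k with
    | zero =>
      intro v
      rw [pow_zero, pow_zero]
      show v = _
      simp
    | succ k ih =>
      intro v
      rw [pow_succ a k, pow_succ M k, MulAut.mul_apply]
      have h1 : a (Multiplicative.ofAdd v) = Multiplicative.ofAdd (F v) := rfl
      rw [h1, ih, hact v]
      simp only [Matrix.mul_apply, Fin.sum_univ_two]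
      congr 1 <;> ring
  have hMp : M ^ p = 1 := by
    have hap : a ^ p = 1 := by
      have h0 := pow_orderOf_eq_one a
      rw [ha] at h0; exact h0
    have h1 : ∀ v : ZMod (p ^ 2) × ZMod (p ^ 2),
        ((M ^ p) 0 0 * v.1 + (M ^ p) 0 1 * v.2, (M ^ p) 1 0 * v.1 + (M ^ p) 1 1 * v.2) = v := by
      intro v; rw [← hpow p v, hap]; rfl
    have h10 := h1 (1, 0)
    have h01 := h1 (0, 1)
    simp only [mul_one, mul_zero, add_zero, zero_add, Prod.mk.injEq] at h10 h01
    ext i j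
    fin_cases i <;> fin_cases j <;> simp [h10.1, h10.2, h01.1, h01.2]
  have hkey := ap2_mat hp M hMp
  have hentry : ∀ i j, (p : ZMod (p ^ 2)) * (M - 1) i j = 0 := by
    intro i j
    have h1 := congrFun (congrFun hkey i) j
    rw [← nsmul_eq_mul, Matrix.smul_apply, nsmul_eq_mul] at h1
    exact h1
  have hxv : ∃ v, x = Multiplicative.ofAdd v := ⟨Multiplicative.toAdd x, rfl⟩
  obtain ⟨v, hv⟩ := hxv
  rw [hv]
  have hpv : p • v = 0 := by
    have h1 : (Multiplicative.ofAdd v) ^ p = 1 := by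
      have h0 := pow_orderOf_eq_one x
      rw [hx, hv] at h0; exact h0
    apply Multiplicative.ofAdd.injective
    rw [ofAdd_nsmul]; exact h1
  obtain ⟨s, t⟩ := v
  have hs : (p : ZMod (p ^ 2)) * s = 0 := by
    have h1 := congrArg Prod.fst hpv
    simpa [nsmul_eq_mul] using h1
  have ht : (p : ZMod (p ^ 2)) * t = 0 := by
    have h1 := congrArg Prod.snd hpv
    simpa [nsmul_eq_mul] using h1
  obtain ⟨s', rfl⟩ := ap2_tors s hs
  obtain ⟨t', rfl⟩ := ap2_tors t ht
  have e00 : (p : ZMod (p ^ 2)) * (M 0 0 - 1) = 0 := by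
    have h1 := hentry 0 0
    simpa [Matrix.sub_apply] using h1
  have e01 : (p : ZMod (p ^ 2)) * M 0 1 = 0 := by
    have h1 := hentry 0 1
    simpa [Matrix.sub_apply, Matrix.one_apply] using h1
  have e10 : (p : ZMod (p ^ 2)) * M 1 0 = 0 := by
    have h1 := hentry 1 0
    simpa [Matrix.sub_apply, Matrix.one_apply] using h1
  have e11 : (p : ZMod (p ^ 2)) * (M 1 1 - 1) = 0 := by
    have h1 := hentry 1 1
    simpa [Matrix.sub_apply] using h1
  have hF : F ((p : ZMod (p ^ 2)) * s', (p : ZMod (p ^ 2)) * t') =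
      ((p : ZMod (p ^ 2)) * s', (p : ZMod (p ^ 2)) * t') := by
    rw [hact]
    apply Prod.ext
    · show M 0 0 * (p * s') + M 0 1 * (p * t') = p * s'
      linear_combination s' * e00 + t' * e01
    · show M 1 0 * (p * s') + M 1 1 * (p * t') = p * t'
      linear_combination s' * e10 + t' * e11
  exact congrArg Multiplicative.ofAdd hF

end Cfsg.Agent.Lib.Helper1
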