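import Mathlib

set_option autoImplicit false

namespace Cfsg.Agent.Lib.Helper1

section EL1

variable {α : Type*} [Fintype α] [DecidableEq α]

theorem el_inv_of_subset (σ : Equiv.Perm α) (T : Finset α) (h : ∀ x ∈ T, σ x ∈ T) :
    T.image σ = T := by
  apply Finset.eq_of_subset_of_card_le
  · intro y hy
    obtain ⟨x, hx, rfl⟩ := Finset.mem_image.mp hy
    exact h x hx
  · rw [Finset.card_image_of_injective _ σ.injective]

theorem el_mem_of_inv (σ : Equiv.Perm α) (T : Finset α) (h : T.image σ = T) {x : α}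
    (hx : x ∈ T) : σ x ∈ T := by
  have h1 := Finset.mem_image_of_mem σ hx
  rwa [h] at h1

theorem el_pow_mem (σ : Equiv.Perm α) (T : Finset α) (h : T.image σ = T) {x : α}
    (hx : x ∈ T) (i : ℕ) : (σ ^ i) x ∈ T := by
  induction i with
  | zero => simpa using hx
  | succ i ih =>
    rw [pow_succ', Equiv.Perm.mul_apply]
    exact el_mem_of_inv σ T h ih

theorem el_remove_orbit (σ : Equiv.Perm α) (r : ℕ) (hr : r.Prime) (hσ : orderOf σ = r)
    (T : Finset α) (hinv : T.image σ = T) (hT : ∀ x ∈ T, σ x ≠ x) (hne : T.Nonempty) :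
    ∃ T₁ : Finset α, T₁ ⊆ T ∧ T₁.image σ = T₁ ∧ T₁.card + r = T.card := by
  obtain ⟨x, hx⟩ := hne
  have hxs : σ x ≠ x := hT x hx
  have hO_sub : (σ.cycleOf x).support ⊆ T := by
    intro y hy
    have hsc := (Equiv.Perm.mem_support_cycleOf_iff.mp hy).1
    obtain ⟨i, -, hi⟩ := hsc.exists_pow_eq'
    rw [← hi]
    exact el_pow_mem σ T hinv hx i
  have hO_card : (σ.cycleOf x).support.card = r := by
    have hc := Equiv.Perm.isCycle_cycleOf σ hxs
    have h1 := hc.orderOf
    have h2 := Equiv.Perm.orderOf_cycleOf_dvd_orderOf σ x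
    rw [h1, hσ] at h2
    have h3 := hc.two_le_card_support
    rcases (Nat.dvd_prime hr).mp h2 with h | h
    · omega
    · exact h
  have hO_iff : ∀ y, σ y ∈ (σ.cycleOf x).support ↔ y ∈ (σ.cycleOf x).support := by
    intro y
    rw [Equiv.Perm.mem_support_cycleOf_iff, Equiv.Perm.mem_support_cycleOf_iff,
      Equiv.Perm.sameCycle_apply_right]
  refine ⟨T \ (σ.cycleOf x).support, Finset.sdiff_subset, ?_, ?_⟩
  · apply el_inv_of_subset
    intro y hy
    rw [Finset.mem_sdiff] at hy ⊢
    exact ⟨el_mem_of_inv σ T hinv hy.1, fun h => hy.2 ((hO_iff y).mp h)⟩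
  · rw [← hO_card]
    exact Finset.card_sdiff_add_card_eq_card hO_sub

theorem el_sizes (σ : Equiv.Perm α) (r : ℕ) (hr : r.Prime) (hσ : orderOf σ = r) :
    ∀ (c : ℕ) (T : Finset α), T.card = c → T.image σ = T → (∀ x ∈ T, σ x ≠ x) →
      r ∣ T.card ∧ ∀ i, r * i ≤ T.card →
        ∃ T' : Finset α, T' ⊆ T ∧ T'.image σ = T' ∧ T'.card = r * i := by
  intro c
  induction c using Nat.strong_induction_on with
  | _ c ih =>
    intro T hc hinv hT
    have hrpos := hr.pos
    by_cases hne : T.Nonempty
    · obtain ⟨T₁, hsub, hinv₁, hcard₁⟩ := el_remove_orbit σ r hr hσ T hinv hT hne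
      obtain ⟨hdvd, hsz⟩ := ih T₁.card (by omega) T₁ rfl hinv₁ (fun x hx => hT x (hsub hx))
      obtain ⟨q, hq⟩ := hdvd
      have hTc : T.card = r * (q + 1) := by rw [← hcard₁, hq]; ring
      refine ⟨⟨q + 1, hTc⟩, ?_⟩
      intro i hi
      by_cases hiq : i = q + 1
      · exact ⟨T, Finset.Subset.refl T, hinv, by rw [hTc, hiq]⟩
      · have hlt : i < q + 1 := by
          rcases Nat.lt_or_ge i (q + 1) with h | h
          · exact h
          · exfalso
            have h1 : r * (q + 1) ≤ r * i := Nat.mul_le_mul_left r h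
            have h2 : r * i = r * (q + 1) := by
              rw [hTc] at hi
              exact le_antisymm hi h1
            exact hiq (Nat.eq_of_mul_eq_mul_left hrpos h2)
        have hle : r * i ≤ T₁.card := by
          rw [hq]
          exact Nat.mul_le_mul_left r (by omega)
        obtain ⟨T', hsub', hinv', hcard'⟩ := hsz i hle
        exact ⟨T', hsub'.trans hsub, hinv', hcard'⟩
    · rw [Finset.not_nonempty_iff_eq_empty] at hne
      subst hne
      refine ⟨by simp, ?_⟩
      intro i hi
      have hi0 : i = 0 := by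
        simp only [Finset.card_empty, Nat.le_zero] at hi
        rcases Nat.mul_eq_zero.mp hi with h | h
        · exact absurd h hrpos.ne'
        · exact h
      subst hi0
      exact ⟨∅, Finset.Subset.refl _, by simp, by simp⟩

theorem el_exists_inv (σ : Equiv.Perm α) (r : ℕ) (hr : r.Prime) (hσ : orderOf σ = r) (k : ℕ)
    (hk : k ≤ Fintype.card α) (hmod : k % r ≤ Fintype.card α % r) :
    ∃ s : Finset α, s.card = k ∧ s.image σ = s := by
  have hrpos := hr.pos
  have hsupp_inv : σ.support.image σ = σ.support :=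
    el_inv_of_subset σ σ.support (fun x hx => Equiv.Perm.apply_mem_support.mpr hx)
  obtain ⟨hdvd, hsz⟩ := el_sizes σ r hr hσ σ.support.card σ.support rfl hsupp_inv
    (fun x hx => Equiv.Perm.mem_support.mp hx)
  obtain ⟨j, hj⟩ := hdvd
  have hF : (Finset.univ \ σ.support).card + σ.support.card = Fintype.card α := by
    rw [Finset.card_sdiff_add_card_eq_card (Finset.subset_univ _), Finset.card_univ]
  have hnmod : Fintype.card α % r = (Finset.univ \ σ.support).card % r := by
    rw [← hF, hj, Nat.add_mul_mod_self_left]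
  have hfm : (Finset.univ \ σ.support).card % r ≤ (Finset.univ \ σ.support).card :=
    Nat.mod_le _ _
  have hkdiv : r * (k / r) + k % r = k := Nat.div_add_mod k r
  have hkle : r * (k / r) ≤ k := Nat.mul_div_le k r
  have key : ∃ i m, r * i ≤ σ.support.card ∧ m ≤ (Finset.univ \ σ.support).card ∧
      r * i + m = k := by
    by_cases hcase : k / r ≤ j
    · refine ⟨k / r, k % r, ?_, ?_, hkdiv⟩
      · rw [hj]; exact Nat.mul_le_mul_left r hcase
      · omega
    · have hjk : r * j ≤ r * (k / r) := Nat.mul_le_mul_left r (by omega)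
      refine ⟨j, k - r * j, le_of_eq hj.symm, ?_, ?_⟩
      · omega
      · omega
  obtain ⟨i, m, hi, hm, hsum⟩ := key
  obtain ⟨T', hsub', hinv', hcard'⟩ := hsz i hi
  obtain ⟨F', hFsub, hFcard⟩ := Finset.exists_subset_card_eq hm
  have hdisj : Disjoint T' F' :=
    Finset.disjoint_left.mpr (fun x hx hx' => (Finset.mem_sdiff.mp (hFsub hx')).2 (hsub' hx))
  refine ⟨T' ∪ F', ?_, ?_⟩
  · rw [Finset.card_union_of_disjoint hdisj, hcard', hFcard]; exact hsum
  · apply el_inv_of_subset
    intro x hx
    rcases Finset.mem_union.mp hx with h | h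
    · exact Finset.mem_union_left _ (el_mem_of_inv σ T' hinv' h)
    · have hfix : σ x = x := Equiv.Perm.notMem_support.mp (Finset.mem_sdiff.mp (hFsub h)).2
      rw [hfix]
      exact Finset.mem_union_right _ h

theorem el_necessary (r : ℕ) (hr : r.Prime) (hrn : r ≤ Fintype.card α) (k : ℕ)
    (h : ∀ σ : Equiv.Perm α, orderOf σ = r → ∃ s : Finset α, s.card = k ∧ s.image σ = s) :
    k % r ≤ Fintype.card α % r := by
  have hrpos := hr.pos
  have hq : 0 < Fintype.card α / r := Nat.div_pos hrn hrpos
  obtain ⟨σ, hσ⟩ := (Equiv.Perm.exists_with_cycleType_iff α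
      (m := Multiset.replicate (Fintype.card α / r) r)).mpr
    ⟨by rw [Multiset.sum_replicate, smul_eq_mul]; exact Nat.div_mul_le_self _ r,
     fun a ha => by rw [Multiset.eq_of_mem_replicate ha]; exact hr.two_le⟩
  have hord : orderOf σ = r := by
    have h1 : orderOf σ ∣ r := by
      rw [← Equiv.Perm.lcm_cycleType, hσ]
      refine Multiset.lcm_dvd.mpr (fun b hb => ?_)
      have hb' := Multiset.eq_of_mem_replicate hb
      rw [hb']
    rcases (Nat.dvd_prime hr).mp h1 with h | h
    · exfalso
      rw [orderOf_eq_one_iff] at h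
      rw [← Equiv.Perm.cycleType_eq_zero, hσ] at h
      have h2 := congrArg Multiset.card h
      rw [Multiset.card_replicate, Multiset.card_zero] at h2
      omega
    · exact h
  have hsupp : σ.support.card = Fintype.card α / r * r := by
    rw [← Equiv.Perm.sum_cycleType, hσ, Multiset.sum_replicate, smul_eq_mul]
  obtain ⟨s, hsk, hsinv⟩ := h σ hord
  have hinv1 : (s ∩ σ.support).image σ = s ∩ σ.support := by
    apply el_inv_of_subset
    intro x hx
    rw [Finset.mem_inter] at hx ⊢
    exact ⟨el_mem_of_inv σ s hsinv hx.1, Equiv.Perm.apply_mem_support.mpr hx.2⟩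
  obtain ⟨hdvd, -⟩ := el_sizes σ r hr hord _ (s ∩ σ.support) rfl hinv1
    (fun x hx => Equiv.Perm.mem_support.mp (Finset.mem_inter.mp hx).2)
  obtain ⟨t, ht⟩ := hdvd
  have hsplit : (s \ σ.support).card + (s ∩ σ.support).card = s.card :=
    Finset.card_sdiff_add_card_inter s σ.support
  have hle : (s \ σ.support).card ≤ (Finset.univ \ σ.support).card :=
    Finset.card_le_card (Finset.sdiff_subset_sdiff (Finset.subset_univ s) (Finset.Subset.refl _))
  have hF : (Finset.univ \ σ.support).card + σ.support.card = Fintype.card α := by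
    rw [Finset.card_sdiff_add_card_eq_card (Finset.subset_univ _), Finset.card_univ]
  have hnd : r * (Fintype.card α / r) + Fintype.card α % r = Fintype.card α :=
    Nat.div_add_mod _ r
  have hmodlt : Fintype.card α % r < r := Nat.mod_lt _ hrpos
  have hf' : (s \ σ.support).card ≤ Fintype.card α % r := by
    have hcomm : Fintype.card α / r * r = r * (Fintype.card α / r) := Nat.mul_comm _ _
    omega
  have hk : k = (s \ σ.support).card + r * t := by rw [← hsk, ← hsplit, ht]
  rw [hk, Nat.add_mul_mod_self_left, Nat.mod_eq_of_lt (by omega)]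
  exact hf'

end EL1

theorem el_prime_le (n k r : ℕ) (hr : r.Prime) (hkn : k ≤ n) (hrd : r ∣ Nat.choose n k) :
    r ≤ n := by
  have h1 : Nat.choose n k ∣ n.factorial := by
    refine ⟨k.factorial * (n - k).factorial, ?_⟩
    rw [← mul_assoc]
    exact (Nat.choose_mul_factorial_mul_factorial hkn).symm
  exact (hr.dvd_factorial).mp (hrd.trans h1)

theorem el_mod_lt (n k r : ℕ) (hr : r.Prime) (hkn : k ≤ n) (hkr : k < r)
    (hrd : r ∣ Nat.choose n k) : n % r < k := by
  have h1 : r ∣ n.descFactorial k := by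
    rw [Nat.descFactorial_eq_factorial_mul_choose]
    exact Dvd.dvd.mul_left hrd _
  rw [Nat.descFactorial_eq_prod_range] at h1
  obtain ⟨i, hi, hdvd⟩ := (Prime.dvd_finsetProd_iff (Nat.Prime.prime hr) _).mp h1
  rw [Finset.mem_range] at hi
  obtain ⟨t, ht⟩ := hdvd
  have hn : n = i + r * t := by omega
  rw [hn, Nat.add_mul_mod_self_left, Nat.mod_eq_of_lt (by omega)]
  exact hi

theorem el_main (n k : ℕ) (hk : 1 ≤ k) (hkn : 2 * k < n) (r : ℕ) (hr : r.Prime)
    (hrd : r ∣ Nat.choose n k) :
    (r ≠ 2 → ((∀ σ : Equiv.Perm (Fin n), orderOf σ = r →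
        ∃ s : Finset (Fin n), s.card = k ∧ s.image σ = s) ↔
      (r ≤ k ∧ k % r ≤ n % r))) ∧
    (r = 2 → ((∀ σ : Equiv.Perm (Fin n), orderOf σ = 2 →
        ∃ s : Finset (Fin n), s.card = k ∧ s.image σ = s) ↔
      (Even k ∨ Odd n))) := by
  have hkn' : k ≤ n := by omega
  have hrn : r ≤ n := el_prime_le n k r hr hkn' hrd
  have hnec : (∀ σ : Equiv.Perm (Fin n), orderOf σ = r →
      ∃ s : Finset (Fin n), s.card = k ∧ s.image σ = s) → k % r ≤ n % r := by
    intro h
    have h1 := el_necessary (α := Fin n) r hr (by rw [Fintype.card_fin]; exact hrn) k h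
    rwa [Fintype.card_fin] at h1
  have hsuf : k % r ≤ n % r → (∀ σ : Equiv.Perm (Fin n), orderOf σ = r →
      ∃ s : Finset (Fin n), s.card = k ∧ s.image σ = s) := by
    intro hm σ hσ
    exact el_exists_inv σ r hr hσ k (by rw [Fintype.card_fin]; exact hkn')
      (by rw [Fintype.card_fin]; exact hm)
  constructor
  · intro _
    constructor
    · intro h
      have hm := hnec h
      refine ⟨?_, hm⟩
      by_contra hlt
      have hlt' : k < r := by omega
      have h1 := el_mod_lt n k r hr hkn' hlt' hrd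
      rw [Nat.mod_eq_of_lt hlt'] at hm
      omega
    · rintro ⟨-, hm⟩
      exact hsuf hm
  · intro h2
    subst h2
    rw [Nat.even_iff, Nat.odd_iff]
    constructor
    · intro h
      have hm := hnec h
      omega
    · intro h
      apply hsuf
      omega

end Cfsg.Agent.Lib.Helper1
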