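import Mathlib
import Cfsg.Prelude.Def_Transfer
import Cfsg.Agent.Lib.Helper4.Frattini
import Cfsg.Agent.Lib.Lead.PFrat

set_option autoImplicit false
open scoped commutatorElement

namespace Cfsg.Agent.Lib.Helper1

/-- the Heisenberg group over `ZMod p` -/
@[ext]
structure Heis (n p : ℕ) where
  a : Fin n → ZMod p
  b : Fin n → ZMod p
  c : ZMod p

namespace Heis

variable {n p : ℕ}

instance : Mul (Heis n p) :=
  ⟨fun x y => ⟨x.a + y.a, x.b + y.b, x.c + y.c + ∑ i, x.a i * y.b i⟩⟩
instance : One (Heis n p) := ⟨⟨0, 0, 0⟩⟩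
instance : Inv (Heis n p) := ⟨fun x => ⟨-x.a, -x.b, -x.c + ∑ i, x.a i * x.b i⟩⟩

theorem mul_a (x y : Heis n p) : (x * y).a = x.a + y.a := rfl
theorem mul_b (x y : Heis n p) : (x * y).b = x.b + y.b := rfl
theorem mul_c (x y : Heis n p) : (x * y).c = x.c + y.c + ∑ i, x.a i * y.b i := rfl
theorem one_a : (1 : Heis n p).a = 0 := rfl
theorem one_b : (1 : Heis n p).b = 0 := rfl
theorem one_c : (1 : Heis n p).c = 0 := rfl
theorem inv_a (x : Heis n p) : (x⁻¹).a = -x.a := rfl
theorem inv_b (x : Heis n p) : (x⁻¹).b = -x.b := rfl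
theorem inv_c (x : Heis n p) : (x⁻¹).c = -x.c + ∑ i, x.a i * x.b i := rfl

instance : Group (Heis n p) :=
  Group.ofLeftAxioms
    (by
      intro x y z
      refine Heis.ext ?_ ?_ ?_
      · simp only [mul_a]; rw [add_assoc]
      · simp only [mul_b]; rw [add_assoc]
      · simp only [mul_c, mul_a, mul_b, Pi.add_apply, mul_add, add_mul, Finset.sum_add_distrib]
        ring)
    (by
      intro x
      refine Heis.ext ?_ ?_ ?_
      · simp only [mul_a, one_a, zero_add]
      · simp only [mul_b, one_b, zero_add]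
      · simp only [mul_c, one_c, one_a, Pi.zero_apply, zero_mul, Finset.sum_const_zero,
          zero_add, add_zero])
    (by
      intro x
      refine Heis.ext ?_ ?_ ?_
      · simp only [mul_a, inv_a, one_a, neg_add_cancel]
      · simp only [mul_b, inv_b, one_b, neg_add_cancel]
      · simp only [mul_c, inv_c, inv_a, one_c, Pi.neg_apply, neg_mul, Finset.sum_neg_distrib]
        ring)

/-- the underlying product -/
def equivProd (n p : ℕ) : Heis n p ≃ (Fin n → ZMod p) × (Fin n → ZMod p) × ZMod p where
  toFun x := (x.a, x.b, x.c)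
  invFun t := ⟨t.1, t.2.1, t.2.2⟩
  left_inv _ := rfl
  right_inv _ := rfl

theorem card_eq [NeZero p] : Nat.card (Heis n p) = p ^ (1 + 2 * n) := by
  rw [Nat.card_congr (equivProd n p), Nat.card_prod, Nat.card_prod, Nat.card_fun,
    Nat.card_eq_fintype_card (α := Fin n), Fintype.card_fin, Nat.card_zmod]
  ring

theorem pow_formula (x : Heis n p) (k : ℕ) :
    (x ^ k).a = k • x.a ∧ (x ^ k).b = k • x.b ∧
      (x ^ k).c = k • x.c + (∑ i ∈ Finset.range k, i) • ∑ i, x.a i * x.b i := by
  induction k with
  | zero =>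
    rw [pow_zero]
    refine ⟨?_, ?_, ?_⟩
    · rw [one_a, zero_smul]
    · rw [one_b, zero_smul]
    · rw [one_c, zero_smul, Finset.range_zero, Finset.sum_empty, zero_smul, add_zero]
  | succ k ih =>
    obtain ⟨h1, h2, h3⟩ := ih
    rw [pow_succ]
    refine ⟨?_, ?_, ?_⟩
    · rw [mul_a, h1, succ_nsmul]
    · rw [mul_b, h2, succ_nsmul]
    · have e : ∑ i, (k • x.a) i * x.b i = k • ∑ i, x.a i * x.b i := by
        rw [Finset.smul_sum]
        apply Finset.sum_congr rfl
        intro i _
        rw [Pi.smul_apply, smul_mul_assoc]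
      rw [mul_c, h3, h1, e, Finset.sum_range_succ, succ_nsmul, add_smul]
      abel

theorem pow_p_eq_one [Fact p.Prime] (hp : p ≠ 2) (x : Heis n p) : x ^ p = 1 := by
  obtain ⟨h1, h2, h3⟩ := pow_formula x p
  have hp0 : ∀ v : ZMod p, p • v = 0 := by
    intro v; rw [nsmul_eq_mul, ZMod.natCast_self, zero_mul]
  have hT : (∑ i ∈ Finset.range p, i) • (∑ i, x.a i * x.b i) = 0 := by
    have h4 : p ∣ ∑ i ∈ Finset.range p, i := by
      have h5 := Finset.sum_range_id_mul_two p
      have h6 : p ∣ (∑ i ∈ Finset.range p, i) * 2 := by rw [h5]; exact dvd_mul_right p (p - 1)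
      have hpp : p.Prime := Fact.out
      have hc : Nat.Coprime p 2 := by
        rw [Nat.coprime_primes hpp Nat.prime_two]; exact hp
      exact hc.dvd_of_dvd_mul_right h6
    obtain ⟨q, hq⟩ := h4
    rw [hq, mul_smul, hp0]
  refine Heis.ext ?_ ?_ ?_
  · rw [h1, one_a]; funext i; rw [Pi.smul_apply, hp0]; rfl
  · rw [h2, one_b]; funext i; rw [Pi.smul_apply, hp0]; rfl
  · rw [h3, hT, hp0, add_zero, one_c]

theorem comm_iff (x y : Heis n p) :
    x * y = y * x ↔ ∑ i, x.a i * y.b i = ∑ i, y.a i * x.b i := by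
  constructor
  · intro h
    have h1 := congrArg Heis.c h
    rw [mul_c, mul_c] at h1
    have h2 : x.c + y.c + ∑ i, x.a i * y.b i = x.c + y.c + ∑ i, y.a i * x.b i := by
      rw [h1]; ring
    exact add_left_cancel h2
  · intro h
    refine Heis.ext ?_ ?_ ?_
    · rw [mul_a, mul_a, add_comm]
    · rw [mul_b, mul_b, add_comm]
    · rw [mul_c, mul_c, h]; ring

theorem central_iff (z : Heis n p) : (∀ w : Heis n p, w * z = z * w) ↔ z.a = 0 ∧ z.b = 0 := by
  constructor
  · intro h
    constructor
    · funext i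
      have h1 : ∑ j, (0 : Fin n → ZMod p) j * z.b j =
          ∑ j, z.a j * (Pi.single i (1 : ZMod p) : Fin n → ZMod p) j :=
        (comm_iff ⟨0, Pi.single i 1, 0⟩ z).mp (h _)
      have h2 : ∑ j, z.a j * (Pi.single i (1 : ZMod p) : Fin n → ZMod p) j = z.a i := by
        rw [Finset.sum_eq_single i]
        · rw [Pi.single_eq_same, mul_one]
        · intro j _ hj; rw [Pi.single_eq_of_ne hj, mul_zero]
        · intro hi; exact absurd (Finset.mem_univ i) hi
      have h3 : ∑ j, (0 : Fin n → ZMod p) j * z.b j = 0 := by simp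
      rw [h3, h2] at h1
      exact h1.symm
    · funext i
      have h1 : ∑ j, (Pi.single i (1 : ZMod p) : Fin n → ZMod p) j * z.b j =
          ∑ j, z.a j * (0 : Fin n → ZMod p) j :=
        (comm_iff ⟨Pi.single i 1, 0, 0⟩ z).mp (h _)
      have h2 : ∑ j, (Pi.single i (1 : ZMod p) : Fin n → ZMod p) j * z.b j = z.b i := by
        rw [Finset.sum_eq_single i]
        · rw [Pi.single_eq_same, one_mul]
        · intro j _ hj; rw [Pi.single_eq_of_ne hj, zero_mul]
        · intro hi; exact absurd (Finset.mem_univ i) hi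
      have h3 : ∑ j, z.a j * (0 : Fin n → ZMod p) j = 0 := by simp
      rw [h3, h2] at h1
      exact h1
  · rintro ⟨ha, hb⟩ w
    rw [comm_iff, ha, hb]
    simp

theorem commutator_central (x y w : Heis n p) : w * ⁅x, y⁆ = ⁅x, y⁆ * w := by
  refine (central_iff _).mpr ⟨?_, ?_⟩ w
  · rw [commutatorElement_def]; simp only [mul_a, inv_a]; abel
  · rw [commutatorElement_def]; simp only [mul_b, inv_b]; abel

theorem central_is_commutator (hn : 1 ≤ n) (z : Heis n p) (hz : ∀ w : Heis n p, w * z = z * w) :
    ∃ x y : Heis n p, z = ⁅x, y⁆ := by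
  obtain ⟨ha, hb⟩ := (central_iff z).mp hz
  refine ⟨⟨Pi.single ⟨0, by omega⟩ z.c, 0, 0⟩, ⟨0, Pi.single ⟨0, by omega⟩ 1, 0⟩, ?_⟩
  rw [commutatorElement_def]
  refine Heis.ext ?_ ?_ ?_
  · simp only [mul_a, inv_a]; rw [ha]; abel
  · simp only [mul_b, inv_b]; rw [hb]; abel
  · simp only [mul_c, mul_a, mul_b, inv_a, inv_b, inv_c]
    simp [Pi.single_apply]

end Heis

/-- the strictly upper triangular part of a Heisenberg matrix -/
def heisN (n p : ℕ) (a b : Fin n → ZMod p) (c : ZMod p) :
    Matrix (Fin (n + 2)) (Fin (n + 2)) (ZMod p) :=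
  Matrix.of fun i j =>
    Fin.cases (motive := fun _ => ZMod p)
      (Fin.cases (motive := fun _ => ZMod p) 0
        (fun j' => Fin.lastCases (motive := fun _ => ZMod p) c (fun j'' => a j'') j') j)
      (fun i' => Fin.lastCases (motive := fun _ => ZMod p) 0
        (fun i'' => Fin.cases (motive := fun _ => ZMod p) 0
          (fun j' => Fin.lastCases (motive := fun _ => ZMod p) (b i'') (fun _ => 0) j') j) i') i

theorem heisN_00 {n p : ℕ} (a b : Fin n → ZMod p) (c : ZMod p) : heisN n p a b c 0 0 = 0 := by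
  simp only [heisN, Matrix.of_apply, Fin.cases_zero]

theorem heisN_0m {n p : ℕ} (a b : Fin n → ZMod p) (c : ZMod p) (j : Fin n) :
    heisN n p a b c 0 (Fin.succ (Fin.castSucc j)) = a j := by
  simp only [heisN, Matrix.of_apply, Fin.cases_zero, Fin.cases_succ, Fin.lastCases_castSucc]

theorem heisN_0l {n p : ℕ} (a b : Fin n → ZMod p) (c : ZMod p) :
    heisN n p a b c 0 (Fin.succ (Fin.last n)) = c := by
  simp only [heisN, Matrix.of_apply, Fin.cases_zero, Fin.cases_succ, Fin.lastCases_last]

theorem heisN_m0 {n p : ℕ} (a b : Fin n → ZMod p) (c : ZMod p) (i : Fin n) :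
    heisN n p a b c (Fin.succ (Fin.castSucc i)) 0 = 0 := by
  simp only [heisN, Matrix.of_apply, Fin.cases_zero, Fin.cases_succ, Fin.lastCases_castSucc]

theorem heisN_mm {n p : ℕ} (a b : Fin n → ZMod p) (c : ZMod p) (i j : Fin n) :
    heisN n p a b c (Fin.succ (Fin.castSucc i)) (Fin.succ (Fin.castSucc j)) = 0 := by
  simp only [heisN, Matrix.of_apply, Fin.cases_zero, Fin.cases_succ, Fin.lastCases_castSucc]

theorem heisN_ml {n p : ℕ} (a b : Fin n → ZMod p) (c : ZMod p) (i : Fin n) :
    heisN n p a b c (Fin.succ (Fin.castSucc i)) (Fin.succ (Fin.last n)) = b i := by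
  simp only [heisN, Matrix.of_apply, Fin.cases_zero, Fin.cases_succ, Fin.lastCases_castSucc,
    Fin.lastCases_last]

theorem heisN_l {n p : ℕ} (a b : Fin n → ZMod p) (c : ZMod p) (j : Fin (n + 2)) :
    heisN n p a b c (Fin.succ (Fin.last n)) j = 0 := by
  simp only [heisN, Matrix.of_apply, Fin.cases_succ, Fin.lastCases_last]

theorem heisN_add {n p : ℕ} (a b a' b' : Fin n → ZMod p) (c c' : ZMod p) :
    heisN n p a b c + heisN n p a' b' c' = heisN n p (a + a') (b + b') (c + c') := by
  ext i j
  rw [Matrix.add_apply]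
  induction i using Fin.cases with
  | zero =>
    induction j using Fin.cases with
    | zero => simp only [heisN_00, add_zero]
    | succ j' =>
      induction j' using Fin.lastCases with
      | last => simp only [heisN_0l]
      | cast j'' => simp only [heisN_0m, Pi.add_apply]
  | succ i' =>
    induction i' using Fin.lastCases with
    | last => simp only [heisN_l, add_zero]
    | cast i'' =>
      induction j using Fin.cases with
      | zero => simp only [heisN_m0, add_zero]
      | succ j' =>
        induction j' using Fin.lastCases with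
        | last => simp only [heisN_ml, Pi.add_apply]
        | cast j'' => simp only [heisN_mm, add_zero]

theorem heisN_zero {n p : ℕ} : heisN n p 0 0 0 = 0 := by
  ext i j
  rw [Matrix.zero_apply]
  induction i using Fin.cases with
  | zero =>
    induction j using Fin.cases with
    | zero => simp only [heisN_00]
    | succ j' =>
      induction j' using Fin.lastCases with
      | last => simp only [heisN_0l]
      | cast j'' => simp only [heisN_0m, Pi.zero_apply]
  | succ i' =>
    induction i' using Fin.lastCases with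
    | last => simp only [heisN_l]
    | cast i'' =>
      induction j using Fin.cases with
      | zero => simp only [heisN_m0]
      | succ j' =>
        induction j' using Fin.lastCases with
        | last => simp only [heisN_ml, Pi.zero_apply]
        | cast j'' => simp only [heisN_mm]

theorem heisN_mul {n p : ℕ} (a b a' b' : Fin n → ZMod p) (c c' : ZMod p) :
    heisN n p a b c * heisN n p a' b' c' = heisN n p 0 0 (∑ k, a k * b' k) := by
  ext i j
  rw [Matrix.mul_apply, Fin.sum_univ_succ, Fin.sum_univ_castSucc]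
  induction i using Fin.cases with
  | zero =>
    induction j using Fin.cases with
    | zero =>
      simp only [heisN_00, heisN_0m, heisN_0l, heisN_m0, heisN_l, mul_zero, zero_mul,
        Finset.sum_const_zero, add_zero]
    | succ j' =>
      induction j' using Fin.lastCases with
      | last =>
        simp only [heisN_00, heisN_0m, heisN_0l, heisN_ml, heisN_l, mul_zero, zero_mul,
          add_zero, zero_add]
      | cast j'' =>
        simp only [heisN_00, heisN_0m, heisN_0l, heisN_mm, heisN_l, mul_zero, zero_mul,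
          Finset.sum_const_zero, add_zero, Pi.zero_apply]
  | succ i' =>
    induction i' using Fin.lastCases with
    | last =>
      simp only [heisN_l, zero_mul, Finset.sum_const_zero, add_zero]
    | cast i'' =>
      induction j using Fin.cases with
      | zero =>
        simp only [heisN_m0, heisN_mm, heisN_ml, heisN_l, mul_zero, zero_mul,
          Finset.sum_const_zero, add_zero]
      | succ j' =>
        induction j' using Fin.lastCases with
        | last =>
          simp only [heisN_m0, heisN_mm, heisN_ml, heisN_l, mul_zero, zero_mul,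
            Finset.sum_const_zero, add_zero, Pi.zero_apply]
        | cast j'' =>
          simp only [heisN_m0, heisN_mm, heisN_ml, heisN_l, mul_zero, zero_mul,
            Finset.sum_const_zero, add_zero]

theorem heisN_inj {n p : ℕ} (a b a' b' : Fin n → ZMod p) (c c' : ZMod p)
    (h : heisN n p a b c = heisN n p a' b' c') : a = a' ∧ b = b' ∧ c = c' := by
  refine ⟨?_, ?_, ?_⟩
  · funext k
    have h1 := congrFun (congrFun h 0) (Fin.succ (Fin.castSucc k))
    rw [heisN_0m, heisN_0m] at h1
    exact h1
  · funext k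
    have h1 := congrFun (congrFun h (Fin.succ (Fin.castSucc k))) (Fin.succ (Fin.last n))
    rw [heisN_ml, heisN_ml] at h1
    exact h1
  · have h1 := congrFun (congrFun h 0) (Fin.succ (Fin.last n))
    rw [heisN_0l, heisN_0l] at h1
    exact h1

/-- the matrix representation of the Heisenberg group -/
def heisHom (n p : ℕ) : Heis n p →* Matrix (Fin (n + 2)) (Fin (n + 2)) (ZMod p) where
  toFun x := 1 + heisN n p x.a x.b x.c
  map_one' := by
    show 1 + heisN n p (0 : Fin n → ZMod p) 0 0 = 1
    rw [heisN_zero, add_zero]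
  map_mul' x y := by
    show 1 + heisN n p (x.a + y.a) (x.b + y.b) (x.c + y.c + ∑ i, x.a i * y.b i) =
      (1 + heisN n p x.a x.b x.c) * (1 + heisN n p y.a y.b y.c)
    have e : heisN n p (x.a + y.a) (x.b + y.b) (x.c + y.c + ∑ i, x.a i * y.b i) =
        heisN n p x.a x.b x.c + heisN n p y.a y.b y.c + heisN n p 0 0 (∑ i, x.a i * y.b i) := by
      rw [heisN_add, heisN_add, add_zero, add_zero]
    rw [e, mul_add, mul_one, add_mul, one_mul, heisN_mul]
    abel

theorem heis_main (p : ℕ) [Fact p.Prime] (hp : p ≠ 2) (n : ℕ) (hn : 1 ≤ n) :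
    ∃ E : Subgroup (Matrix.GeneralLinearGroup (Fin (n + 2)) (ZMod p)),
      Cfsg.IsExtraspecial p ↥E ∧ Nat.card E = p ^ (1 + 2 * n) ∧ ∀ x ∈ E, x ^ p = 1 := by
  haveI : NeZero p := ⟨(Fact.out : p.Prime).ne_zero⟩
  obtain ⟨φ, hφ⟩ : ∃ φ : Heis n p →* Matrix.GeneralLinearGroup (Fin (n + 2)) (ZMod p),
      ∀ x, ((φ x : Matrix.GeneralLinearGroup (Fin (n + 2)) (ZMod p)) :
        Matrix (Fin (n + 2)) (Fin (n + 2)) (ZMod p)) = 1 + heisN n p x.a x.b x.c :=
    ⟨(heisHom n p).toHomUnits, fun x => rfl⟩
  have hφinj : Function.Injective φ := by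
    intro x y hxy
    have h2 : (1 : Matrix (Fin (n + 2)) (Fin (n + 2)) (ZMod p)) + heisN n p x.a x.b x.c =
        1 + heisN n p y.a y.b y.c := by
      rw [← hφ x, ← hφ y, hxy]
    have h3 := add_left_cancel h2
    obtain ⟨ha, hb, hc⟩ := heisN_inj _ _ _ _ _ _ h3
    exact Heis.ext ha hb hc
  obtain ⟨ψ, hψ⟩ : ∃ ψ : Heis n p ≃* φ.range, ∀ x, ((ψ x : φ.range) :
      Matrix.GeneralLinearGroup (Fin (n + 2)) (ZMod p)) = φ x :=
    ⟨MonoidHom.ofInjective hφinj, fun x => rfl⟩
  have hcard : Nat.card φ.range = p ^ (1 + 2 * n) := by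
    rw [← Nat.card_congr ψ.toEquiv]; exact Heis.card_eq
  have hpowH : ∀ x : Heis n p, x ^ p = 1 := Heis.pow_p_eq_one hp
  refine ⟨φ.range, ?_, hcard, ?_⟩
  · -- extraspecial
    have hpow : ∀ x : φ.range, x ^ p = 1 := by
      intro x
      obtain ⟨h, rfl⟩ := ψ.surjective x
      rw [← map_pow, hpowH, map_one]
    have hcommc : ∀ x y : φ.range, ⁅x, y⁆ ∈ Subgroup.center φ.range := by
      intro x y
      obtain ⟨h, rfl⟩ := ψ.surjective x
      obtain ⟨h', rfl⟩ := ψ.surjective y
      rw [← map_commutatorElement, Subgroup.mem_center_iff]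
      intro g
      obtain ⟨k, rfl⟩ := ψ.surjective g
      rw [← map_mul, ← map_mul, Heis.commutator_central]
    have hcentral : ∀ h : Heis n p, ψ h ∈ Subgroup.center φ.range → ∀ w : Heis n p, w * h = h * w := by
      intro h hh w
      rw [Subgroup.mem_center_iff] at hh
      apply ψ.injective
      rw [map_mul, map_mul]
      exact hh (ψ w)
    have hcz : Subgroup.center φ.range ≤ commutator φ.range := by
      intro z hz
      obtain ⟨h, rfl⟩ := ψ.surjective z
      obtain ⟨x, y, hxy⟩ := Heis.central_is_commutator hn h (hcentral h hz)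
      rw [hxy, map_commutatorElement, commutator_def]
      exact Subgroup.commutator_mem_commutator (Subgroup.mem_top _) (Subgroup.mem_top _)
    have hcomm : commutator φ.range = Subgroup.center φ.range := by
      apply le_antisymm _ hcz
      rw [commutator_def, Subgroup.commutator_le]
      intro g _ h _
      exact hcommc g h
    have hPG : IsPGroup p φ.range := IsPGroup.of_card hcard
    have hfr : frattini φ.range = Subgroup.center φ.range := by
      apply le_antisymm
      · exact Cfsg.Agent.Lib.Helper4.frattini_le_of_comm_pow (Subgroup.center φ.range) hcommc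
          (fun x => by rw [hpow x]; exact Subgroup.one_mem _)
      · rw [← hcomm]
        exact (Cfsg.Agent.Lib.Lead.commutator_le_frattini_and_pow_mem hPG).1
    refine ⟨⟨hPG, hfr, hcomm⟩, ?_⟩
    -- the centre has order p
    have hzc : ∀ c : ZMod p, ψ ⟨0, 0, c⟩ ∈ Subgroup.center φ.range := by
      intro c
      rw [Subgroup.mem_center_iff]
      intro g
      obtain ⟨k, rfl⟩ := ψ.surjective g
      rw [← map_mul, ← map_mul, (Heis.central_iff (⟨0, 0, c⟩ : Heis n p)).mpr ⟨rfl, rfl⟩ k]
    have hbij : Function.Bijective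
        (fun c : ZMod p => (⟨ψ ⟨0, 0, c⟩, hzc c⟩ : Subgroup.center φ.range)) := by
      constructor
      · intro c c' hcc
        have h1 : ψ (⟨0, 0, c⟩ : Heis n p) = ψ ⟨0, 0, c'⟩ := congrArg Subtype.val hcc
        exact congrArg Heis.c (ψ.injective h1)
      · intro z
        obtain ⟨h, hh⟩ := ψ.surjective z.1
        have hz : ψ h ∈ Subgroup.center φ.range := by rw [hh]; exact z.2
        obtain ⟨ha, hb⟩ := (Heis.central_iff h).mp (hcentral h hz)
        refine ⟨h.c, ?_⟩
        apply Subtype.ext
        show ψ (⟨0, 0, h.c⟩ : Heis n p) = z.1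
        rw [← hh]
        congr 1
        exact Heis.ext ha.symm hb.symm rfl
    rw [← Nat.card_congr (Equiv.ofBijective _ hbij), Nat.card_zmod]
  · rintro _ ⟨h, rfl⟩
    rw [← map_pow, hpowH, map_one]

end Cfsg.Agent.Lib.Helper1
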