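import Mathlib
import Cfsg.Prelude.Def_Transfer
import Cfsg.Prelude.Def_PLocal
import Cfsg.Agent.Lib.Helper1.HE1

set_option autoImplicit false
open scoped commutatorElement

namespace Cfsg.Agent.Lib.Helper1

/-- the extraspecial structure of any group isomorphic to a Heisenberg group -/
theorem heis_equiv_main (p : ℕ) [Fact p.Prime] (hp : p ≠ 2) (n : ℕ) (hn : 1 ≤ n)
    {G : Type*} [Group G] (ψ : Heis n p ≃* G) :
    Cfsg.IsExtraspecial p G ∧ Nat.card G = p ^ (1 + 2 * n) ∧ ∀ x : G, x ^ p = 1 := by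
  have hpp : p.Prime := Fact.out
  haveI : NeZero p := ⟨hpp.ne_zero⟩
  have hcard : Nat.card G = p ^ (1 + 2 * n) := by
    rw [← Nat.card_congr ψ.toEquiv]; exact Heis.card_eq
  haveI : Finite G := Nat.finite_of_card_ne_zero (by rw [hcard]; exact pow_ne_zero _ hpp.ne_zero)
  have hpowH : ∀ x : Heis n p, x ^ p = 1 := Heis.pow_p_eq_one hp
  have hpow : ∀ x : G, x ^ p = 1 := by
    intro x
    obtain ⟨h, rfl⟩ := ψ.surjective x
    rw [← map_pow, hpowH, map_one]
  refine ⟨?_, hcard, hpow⟩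
  have hcommc : ∀ x y : G, ⁅x, y⁆ ∈ Subgroup.center G := by
    intro x y
    obtain ⟨h, rfl⟩ := ψ.surjective x
    obtain ⟨h', rfl⟩ := ψ.surjective y
    rw [← map_commutatorElement, Subgroup.mem_center_iff]
    intro g
    obtain ⟨k, rfl⟩ := ψ.surjective g
    rw [← map_mul, ← map_mul, Heis.commutator_central]
  have hcentral : ∀ h : Heis n p, ψ h ∈ Subgroup.center G → ∀ w : Heis n p, w * h = h * w := by
    intro h hh w
    rw [Subgroup.mem_center_iff] at hh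
    apply ψ.injective
    rw [map_mul, map_mul]
    exact hh (ψ w)
  have hcz : Subgroup.center G ≤ commutator G := by
    intro z hz
    obtain ⟨h, rfl⟩ := ψ.surjective z
    obtain ⟨x, y, hxy⟩ := Heis.central_is_commutator hn h (hcentral h hz)
    rw [hxy, map_commutatorElement, commutator_def]
    exact Subgroup.commutator_mem_commutator (Subgroup.mem_top _) (Subgroup.mem_top _)
  have hcomm : commutator G = Subgroup.center G := by
    apply le_antisymm _ hcz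
    rw [commutator_def, Subgroup.commutator_le]
    intro g _ h _
    exact hcommc g h
  have hPG : IsPGroup p G := IsPGroup.of_card hcard
  have hfr : frattini G = Subgroup.center G := by
    apply le_antisymm
    · exact Cfsg.Agent.Lib.Helper4.frattini_le_of_comm_pow (Subgroup.center G) hcommc
        (fun x => by rw [hpow x]; exact Subgroup.one_mem _)
    · rw [← hcomm]
      exact (Cfsg.Agent.Lib.Lead.commutator_le_frattini_and_pow_mem hPG).1
  refine ⟨⟨hPG, hfr, hcomm⟩, ?_⟩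
  have hzc : ∀ c : ZMod p, ψ ⟨0, 0, c⟩ ∈ Subgroup.center G := by
    intro c
    rw [Subgroup.mem_center_iff]
    intro g
    obtain ⟨k, rfl⟩ := ψ.surjective g
    rw [← map_mul, ← map_mul, (Heis.central_iff (⟨0, 0, c⟩ : Heis n p)).mpr ⟨rfl, rfl⟩ k]
  have hbij : Function.Bijective
      (fun c : ZMod p => (⟨ψ ⟨0, 0, c⟩, hzc c⟩ : Subgroup.center G)) := by
    constructor
    · intro c c' hcc
      have h1 : ψ (⟨0, 0, c⟩ : Heis n p) = ψ ⟨0, 0, c'⟩ := congrArg Subtype.val hcc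
      exact congrArg Heis.c (ψ.injective h1)
    · intro z
      obtain ⟨h, hh⟩ := ψ.surjective z.1
      have hz : ψ h ∈ Subgroup.center G := by rw [hh]; exact z.2
      obtain ⟨ha, hb⟩ := (Heis.central_iff h).mp (hcentral h hz)
      refine ⟨h.c, ?_⟩
      apply Subtype.ext
      show ψ (⟨0, 0, h.c⟩ : Heis n p) = z.1
      rw [← hh]
      congr 1
      exact Heis.ext ha.symm hb.symm rfl
  rw [← Nat.card_congr (Equiv.ofBijective _ hbij), Nat.card_zmod]

/-- the unitriangular matrix of a Heisenberg element -/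
def qdMat (p : ℕ) (x : Heis 1 p) : Matrix (Fin 3) (Fin 3) (ZMod p) :=
  !![1, x.a 0, x.c; 0, 1, x.b 0; 0, 0, 1]

theorem qdMat_det (p : ℕ) (x : Heis 1 p) : (qdMat p x).det = 1 := by
  rw [Matrix.det_fin_three]; simp [qdMat]

theorem qdMat_mul (p : ℕ) (x y : Heis 1 p) : qdMat p (x * y) = qdMat p x * qdMat p y := by
  ext i j
  fin_cases i <;> fin_cases j <;>
    simp [qdMat, Matrix.mul_apply, Fin.sum_univ_three, Heis.mul_a, Heis.mul_b, Heis.mul_c] <;>
    ring

theorem qdMat_one (p : ℕ) : qdMat p 1 = 1 := by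
  ext i j
  fin_cases i <;> fin_cases j <;> simp [qdMat, Heis.one_a, Heis.one_b, Heis.one_c]

/-- the embedding into `SL₃` -/
def qdSL (p : ℕ) : Heis 1 p →* Matrix.SpecialLinearGroup (Fin 3) (ZMod p) where
  toFun x := ⟨qdMat p x, qdMat_det p x⟩
  map_one' := by
    apply Subtype.ext
    exact qdMat_one p
  map_mul' x y := by
    apply Subtype.ext
    exact qdMat_mul p x y

theorem qdSL_val (p : ℕ) (x : Heis 1 p) :
    ((qdSL p x : Matrix.SpecialLinearGroup (Fin 3) (ZMod p)) : Matrix (Fin 3) (Fin 3) (ZMod p)) =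
      qdMat p x := rfl

theorem qdSL_mem (p : ℕ) (x : Heis 1 p) : qdSL p x ∈ Cfsg.qd p := by
  apply Subgroup.subset_closure
  show qdMat p x 2 0 = 0 ∧ qdMat p x 2 1 = 0 ∧ qdMat p x 2 2 = 1
  simp [qdMat]

theorem qdSL_inj (p : ℕ) : Function.Injective (qdSL p) := by
  intro x y h
  have h1 : qdMat p x = qdMat p y := by rw [← qdSL_val, ← qdSL_val, h]
  have ha : qdMat p x 0 1 = qdMat p y 0 1 := by rw [h1]
  have hb : qdMat p x 1 2 = qdMat p y 1 2 := by rw [h1]
  have hc : qdMat p x 0 2 = qdMat p y 0 2 := by rw [h1]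
  simp [qdMat] at ha hb hc
  refine Heis.ext ?_ ?_ hc
  · funext i; rw [Subsingleton.elim i 0]; exact ha
  · funext i; rw [Subsingleton.elim i 0]; exact hb

theorem not_dvd_pred (p a : ℕ) (hp : p.Prime) (ha : p ∣ a) (ha1 : 1 ≤ a) : ¬ p ∣ a - 1 := by
  intro h
  have h2 : p ∣ (a - 1) + 1 := by rw [Nat.sub_add_cancel ha1]; exact ha
  have h3 : p ∣ 1 := (Nat.dvd_add_right h).mp h2
  exact hp.one_lt.ne' (Nat.dvd_one.mp h3)

theorem pow_dvd_gl3 (p k : ℕ) (hp : p.Prime)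
    (h : p ^ k ∣ (p ^ 3 - 1) * (p ^ 3 - p) * (p ^ 3 - p ^ 2)) : k ≤ 3 := by
  by_contra hk
  have hk4 : 4 ≤ k := by omega
  have h4 : p ^ 4 ∣ (p ^ 3 - 1) * (p ^ 3 - p) * (p ^ 3 - p ^ 2) :=
    (pow_dvd_pow p hk4).trans h
  have e1 : p ^ 3 - p = p * (p ^ 2 - 1) := by
    rw [Nat.mul_sub]; congr 1 <;> ring
  have e2 : p ^ 3 - p ^ 2 = p ^ 2 * (p - 1) := by
    rw [Nat.mul_sub]; congr 1 <;> ring
  have e3 : (p ^ 3 - 1) * (p ^ 3 - p) * (p ^ 3 - p ^ 2) =
      p ^ 3 * ((p ^ 3 - 1) * (p ^ 2 - 1) * (p - 1)) := by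
    rw [e1, e2]; ring
  have e4 : p ^ 4 = p ^ 3 * p := by ring
  rw [e3, e4] at h4
  have h5 : p ∣ (p ^ 3 - 1) * (p ^ 2 - 1) * (p - 1) :=
    Nat.dvd_of_mul_dvd_mul_left (pow_pos hp.pos 3) h4
  rcases hp.dvd_mul.mp h5 with h6 | h6
  · rcases hp.dvd_mul.mp h6 with h7 | h7
    · exact not_dvd_pred p (p ^ 3) hp (dvd_pow_self p (by norm_num)) (Nat.one_le_pow _ _ hp.pos) h7
    · exact not_dvd_pred p (p ^ 2) hp (dvd_pow_self p (by norm_num)) (Nat.one_le_pow _ _ hp.pos) h7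
  · exact not_dvd_pred p p hp (dvd_refl p) hp.pos h6

theorem qd_sylow_main (p : ℕ) [Fact p.Prime] (hp : p ≠ 2) (P : Sylow p ↥(Cfsg.qd p)) :
    Cfsg.IsExtraspecial p ↥P ∧ Nat.card P = p ^ 3 ∧ Monoid.exponent ↥P = p := by
  have hpp : p.Prime := Fact.out
  haveI : NeZero p := ⟨hpp.ne_zero⟩
  obtain ⟨φ, hφ⟩ : ∃ φ : Heis 1 p →* ↥(Cfsg.qd p), ∀ x,
      ((φ x : ↥(Cfsg.qd p)) : Matrix.SpecialLinearGroup (Fin 3) (ZMod p)) = qdSL p x :=
    ⟨(qdSL p).codRestrict (Cfsg.qd p) (qdSL_mem p), fun x => rfl⟩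
  have hφinj : Function.Injective φ := by
    intro x y h
    apply qdSL_inj p
    rw [← hφ x, ← hφ y, h]
  obtain ⟨ψ, -⟩ : ∃ ψ : Heis 1 p ≃* φ.range, True := ⟨MonoidHom.ofInjective hφinj, trivial⟩
  have hcH : Nat.card (Heis 1 p) = p ^ 3 := Heis.card_eq
  have hcR : Nat.card φ.range = p ^ 3 := by
    rw [← Nat.card_congr ψ.toEquiv]; exact hcH
  have hRp : IsPGroup p φ.range := IsPGroup.of_card hcR
  obtain ⟨Q, hQ⟩ := hRp.exists_le_sylow
  have hPc := Sylow.card_eq_multiplicity P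
  have hQc := Sylow.card_eq_multiplicity Q
  -- the order of `P` divides the order of `GL₃(p)`
  have hdvd : Nat.card P ∣ (p ^ 3 - 1) * (p ^ 3 - p) * (p ^ 3 - p ^ 2) := by
    have h1 : Nat.card P ∣ Nat.card (Matrix.GeneralLinearGroup (Fin 3) (ZMod p)) := by
      apply Subgroup.card_dvd_of_injective
        (Matrix.SpecialLinearGroup.toGL.comp ((Cfsg.qd p).subtype.comp (P : Subgroup _).subtype))
      intro x y hxy
      have h2 := Matrix.SpecialLinearGroup.toGL_injective hxy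
      exact Subtype.ext (Subtype.ext h2)
    have h3 : Nat.card (Matrix.GeneralLinearGroup (Fin 3) (ZMod p)) =
        (p ^ 3 - 1) * (p ^ 3 - p) * (p ^ 3 - p ^ 2) := by
      rw [Matrix.card_GL_field, ZMod.card, Fin.prod_univ_three]
      simp
    rw [h3] at h1
    exact h1
  rw [hPc] at hdvd
  have hk3 := pow_dvd_gl3 p _ hpp hdvd
  have hRQ : Nat.card φ.range ∣ Nat.card Q := Subgroup.card_dvd_of_le hQ
  rw [hcR, hQc] at hRQ
  have hk3' : 3 ≤ (Nat.card ↥(Cfsg.qd p)).factorization p :=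
    (Nat.pow_dvd_pow_iff_le_right hpp.one_lt).mp hRQ
  have hk : (Nat.card ↥(Cfsg.qd p)).factorization p = 3 := le_antisymm hk3 hk3'
  rw [hk] at hPc hQc
  have hRQeq : φ.range = (Q : Subgroup ↥(Cfsg.qd p)) :=
    Subgroup.eq_of_le_of_card_ge hQ (by rw [hcR, hQc])
  obtain ⟨g, hg⟩ := MulAction.exists_smul_eq ↥(Cfsg.qd p) Q P
  subst hg
  obtain ⟨h1, h2, h3⟩ := heis_equiv_main p hp 1 le_rfl
    ((ψ.trans (MulEquiv.subgroupCongr hRQeq)).trans (Sylow.equivSMul Q g))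
  refine ⟨h1, hPc, ?_⟩
  have hd : Monoid.exponent ↥(g • Q) ∣ p := Monoid.exponent_dvd_of_forall_pow_eq_one h3
  rcases (Nat.dvd_prime hpp).mp hd with h | h
  · exfalso
    rw [Monoid.exp_eq_one_iff] at h
    have h4 : Nat.card ↥(g • Q) = 1 := Nat.card_of_subsingleton 1
    have h6 : (1 : ℕ) = p ^ 3 := h4.symm.trans hPc
    have h5 : 1 < p ^ 3 := Nat.one_lt_pow (by norm_num) hpp.one_lt
    omega
  · exact h

end Cfsg.Agent.Lib.Helper1
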