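import Mathlib

set_option autoImplicit false

namespace Cfsg.Agent.Lib.Helper1

variable {G : Type*} [Group G]

theorem sq_one_of_orderOf_two {x : G} (h : orderOf x = 2) : x * x = 1 := by
  have := pow_orderOf_eq_one x
  rw [h, pow_two] at this
  exact this

theorem cancel' {x : G} (hx : x * x = 1) (z : G) : x * (x * z) = z := by
  rw [← mul_assoc, hx, one_mul]

theorem inv_self_of_sq {x : G} (hx : x * x = 1) : x⁻¹ = x :=
  inv_eq_of_mul_eq_one_right hx

theorem comm_of_sq {x y : G} (hx : x * x = 1) (hy : y * y = 1) (h : (x * y) ^ 2 = 1) :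
    x * y = y * x := by
  have h' : x * (y * (x * y)) = 1 := by
    rw [pow_two] at h
    simpa only [mul_assoc] using h
  calc x * y = y * (x * (x * (y * (x * y)))) := by
        simp only [cancel' hx, cancel' hy]
    _ = y * (x * 1) := by rw [h']
    _ = y * x := by rw [mul_one]

theorem cube_expand {x y : G} (h : (x * y) ^ 3 = 1) : x * (y * (x * (y * (x * y)))) = 1 := by
  have : (x * y) ^ 3 = x * (y * (x * (y * (x * y)))) := by
    rw [pow_succ, pow_two]
    simp only [mul_assoc]
  rw [← this]; exact h

theorem braid_of_cube {x y : G} (hx : x * x = 1) (hy : y * y = 1) (h : (x * y) ^ 3 = 1) :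
    y * (x * y) = x * (y * x) := by
  have h' := cube_expand h
  calc y * (x * y) = x * (y * (x * (x * (y * (x * (y * (x * y))))))) := by
        simp only [cancel' hx, cancel' hy]
    _ = x * (y * (x * 1)) := by rw [h']
    _ = x * (y * x) := by rw [mul_one]

/-- the key lemma for two commuting 3-transpositions -/
theorem key2 {a b e : G} (a2 : a * a = 1) (b2 : b * b = 1) (e2 : e * e = 1) (hne : a ≠ b)
    (hea : (e * a) ^ 2 = 1 ∨ (e * a) ^ 3 = 1) (heb : (e * b) ^ 2 = 1 ∨ (e * b) ^ 3 = 1)
    (h : e * (a * b) = a * b * e) : e * a = a * e := by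
  by_contra hna
  have h3a : (e * a) ^ 3 = 1 := hea.resolve_left (fun h2 => hna (comm_of_sq e2 a2 h2))
  rcases heb with k2 | k3
  · have eb := comm_of_sq e2 b2 k2
    apply hna
    calc e * a = e * (a * (b * b)) := by rw [b2, mul_one]
      _ = (e * (a * b)) * b := by simp only [mul_assoc]
      _ = (a * b * e) * b := by rw [h]
      _ = a * (b * (e * b)) := by simp only [mul_assoc]
      _ = a * (b * (b * e)) := by rw [eb]
      _ = a * e := by rw [cancel' b2]
  · have ba := braid_of_cube e2 a2 h3a
    have bb := braid_of_cube e2 b2 k3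
    have key : a * (e * a) = b * (e * b) := by
      calc a * (e * a) = a * (e * (a * (b * b))) := by rw [b2, mul_one]
        _ = a * ((e * (a * b)) * b) := by simp only [mul_assoc]
        _ = a * ((a * b * e) * b) := by rw [h]
        _ = a * (a * (b * (e * b))) := by simp only [mul_assoc]
        _ = b * (e * b) := by rw [cancel' a2]
    rw [ba, bb] at key
    exact hne (mul_right_cancel (mul_left_cancel key))

/-- the key lemma for three commuting 3-transpositions: `e` cannot fail to commute with all -/
theorem key3 {a b c e : G} (a2 : a * a = 1) (b2 : b * b = 1) (c2 : c * c = 1) (e2 : e * e = 1)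
    (hab : a * b = b * a) (hac : a * c = c * a) (hbc : b * c = c * b)
    (h3a : (e * a) ^ 3 = 1) (h3b : (e * b) ^ 3 = 1) (h3c : (e * c) ^ 3 = 1)
    (h : e * (a * b * c) = a * b * c * e) : e * a = a * e := by
  have ba := braid_of_cube e2 a2 h3a
  have bb := braid_of_cube e2 b2 h3b
  have bc := braid_of_cube e2 c2 h3c
  have h' : e * (a * (b * c)) = a * (b * (c * e)) := by
    simpa only [mul_assoc] using h
  -- step 1 : a e a = b c e c b
  have s1 : a * (e * a) = b * (c * (e * (c * b))) := by
    calc a * (e * a) = a * (e * (a * (b * (c * (c * b))))) := by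
          simp only [cancel' c2, b2, mul_one]
      _ = a * ((e * (a * (b * c))) * (c * b)) := by simp only [mul_assoc]
      _ = a * ((a * (b * (c * e))) * (c * b)) := by rw [h']
      _ = a * (a * (b * (c * (e * (c * b))))) := by simp only [mul_assoc]
      _ = b * (c * (e * (c * b))) := by rw [cancel' a2]
  -- step 2 : e a e = c e b e c
  have s2 : e * (a * e) = c * (e * (b * (e * c))) := by
    calc e * (a * e) = a * (e * a) := ba.symm
      _ = b * (c * (e * (c * b))) := s1
      _ = (b * c) * (e * (c * b)) := by simp only [mul_assoc]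
      _ = (c * b) * (e * (b * c)) := by rw [hbc]
      _ = c * ((b * (e * b)) * c) := by simp only [mul_assoc]
      _ = c * ((e * (b * e)) * c) := by rw [bb]
      _ = c * (e * (b * (e * c))) := by simp only [mul_assoc]
  -- e b e = c e a e c
  have s3 : e * (b * e) = c * (e * (a * (e * c))) := by
    calc e * (b * e) = c * ((c * (e * (b * (e * c)))) * c) := by
          simp only [mul_assoc, cancel' c2, c2, mul_one]
      _ = c * ((e * (a * e)) * c) := by rw [s2]
      _ = c * (e * (a * (e * c))) := by simp only [mul_assoc]
  have hcac : c * (a * c) = a := by rw [hac, cancel' c2]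
  have s4 : c * (e * (a * (e * c))) = e * (c * (e * (a * (e * (c * e))))) := by
    calc c * (e * (a * (e * c))) = c * (e * ((c * (a * c)) * (e * c))) := by rw [hcac]
      _ = (c * (e * c)) * (a * (c * (e * c))) := by simp only [mul_assoc]
      _ = (e * (c * e)) * (a * (e * (c * e))) := by rw [bc]
      _ = e * (c * (e * (a * (e * (c * e))))) := by simp only [mul_assoc]
  have s5 : b = c * (e * (a * (e * c))) := by
    have t : e * (b * e) = e * ((c * (e * (a * (e * c)))) * e) := by
      calc e * (b * e) = c * (e * (a * (e * c))) := s3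
        _ = e * (c * (e * (a * (e * (c * e))))) := s4
        _ = e * ((c * (e * (a * (e * c)))) * e) := by simp only [mul_assoc]
    exact mul_right_cancel (mul_left_cancel t)
  have hcbc : c * (b * c) = b := by rw [hbc, cancel' c2]
  have s6 : b = e * (a * e) := by
    calc b = c * (b * c) := hcbc.symm
      _ = c * ((c * (e * (a * (e * c)))) * c) := by rw [← s5]
      _ = e * (a * e) := by simp only [mul_assoc, cancel' c2, c2, mul_one]
  have s7 : a * (e * (a * e)) = e * (a * (e * a)) := by
    have := hab
    rw [s6] at this
    simpa only [mul_assoc] using this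
  have h6 := cube_expand h3a
  have s8 : e * a = a * (e * (a * e)) := by
    calc e * a = a * (e * (a * (e * (e * (a * (e * (a * (e * a)))))))) := by
          simp only [cancel' a2, cancel' e2]
      _ = a * (e * (a * (e * 1))) := by rw [h6]
      _ = a * (e * (a * e)) := by rw [mul_one]
  have s9 : e * (a * (e * a)) = a * e := by
    calc e * (a * (e * a)) = e * (a * (e * (a * (e * (a * (a * e)))))) := by
          simp only [cancel' a2, e2, mul_one]
      _ = (e * (a * (e * (a * (e * a))))) * (a * e) := by simp only [mul_assoc]
      _ = a * e := by rw [h6, one_mul]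
  rw [s8, s7, s9]

end Cfsg.Agent.Lib.Helper1
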