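import Mathlib

set_option autoImplicit false

namespace Cfsg.Agent.Lib.Helper1

/-- An element `g` normalizing an abelian `2`-group `P`, with an odd power centralizing `P`, that
centralizes all elements of `P` of order at most `2`, centralizes `P`. -/
theorem centralizes_of_odd_of_centralizes_omega {G : Type*} [Group G] (P : Subgroup G)
    (hPcomm : ∀ a ∈ P, ∀ b ∈ P, a * b = b * a)
    (hP2 : ∀ x ∈ P, ∃ k : ℕ, x ^ (2 ^ k) = 1)
    (g : G) (hgN : ∀ x ∈ P, g * x * g⁻¹ ∈ P)
    (r : ℕ) (hr : Odd r) (hgr : ∀ x ∈ P, g ^ r * x * (g ^ r)⁻¹ = x)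
    (hΩ : ∀ x ∈ P, x ^ 2 = 1 → g * x * g⁻¹ = x) :
    ∀ x ∈ P, g * x * g⁻¹ = x := by
  have key : ∀ k : ℕ, ∀ x ∈ P, x ^ (2 ^ k) = 1 → g * x * g⁻¹ = x := by
    intro k
    induction k with
    | zero =>
      intro x _ hx
      rw [pow_zero, pow_one] at hx
      rw [hx]; group
    | succ k ih =>
      intro x hx hxk
      have hx2 : (x ^ 2) ^ (2 ^ k) = 1 := by
        rw [← pow_mul, ← pow_succ']; exact hxk
      have h1 : g * x ^ 2 * g⁻¹ = x ^ 2 := ih (x ^ 2) (P.pow_mem hx 2) hx2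
      have hgx : g * x * g⁻¹ ∈ P := hgN x hx
      have hc : (g * x * g⁻¹) * x⁻¹ = x⁻¹ * (g * x * g⁻¹) := hPcomm _ hgx _ (P.inv_mem hx)
      obtain ⟨t, ht_def⟩ : ∃ t, t = x⁻¹ * (g * x * g⁻¹) := ⟨_, rfl⟩
      have hgxt : g * x * g⁻¹ = x * t := by rw [ht_def]; group
      have htP : t ∈ P := by rw [ht_def]; exact P.mul_mem (P.inv_mem hx) hgx
      have ht2 : t * t = 1 := by
        rw [ht_def]
        calc x⁻¹ * (g * x * g⁻¹) * (x⁻¹ * (g * x * g⁻¹))
            = x⁻¹ * ((g * x * g⁻¹) * x⁻¹) * (g * x * g⁻¹) := by group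
          _ = x⁻¹ * (x⁻¹ * (g * x * g⁻¹)) * (g * x * g⁻¹) := by rw [hc]
          _ = (x * x)⁻¹ * (g * (x * x) * g⁻¹) := by group
          _ = 1 := by rw [← pow_two, h1]; group
      have ht : g * t * g⁻¹ = t := hΩ t htP (by rw [pow_two]; exact ht2)
      have hpow : ∀ n : ℕ, g * t ^ n * g⁻¹ = t ^ n := by
        intro n; rw [← conj_pow, ht]
      have hj : ∀ j : ℕ, g ^ j * x * (g ^ j)⁻¹ = x * t ^ j := by
        intro j
        induction j with
        | zero => simp
        | succ j ihj =>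
          calc g ^ (j + 1) * x * (g ^ (j + 1))⁻¹ = g * (g ^ j * x * (g ^ j)⁻¹) * g⁻¹ := by
                rw [pow_succ', mul_inv_rev]; simp only [mul_assoc]
            _ = g * (x * t ^ j) * g⁻¹ := by rw [ihj]
            _ = (g * x * g⁻¹) * (g * t ^ j * g⁻¹) := by simp only [mul_assoc, inv_mul_cancel_left]
            _ = x * t * t ^ j := by rw [hpow, hgxt]
            _ = x * t ^ (j + 1) := by rw [pow_succ', mul_assoc]
      have h2 := hj r
      rw [hgr x hx] at h2
      obtain ⟨q, hq⟩ := hr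
      have h3 : t ^ r = t := by rw [hq, pow_succ, pow_mul, pow_two, ht2, one_pow, one_mul]
      rw [h3] at h2
      rw [hgxt]; exact h2.symm
  intro x hx
  obtain ⟨k, hk⟩ := hP2 x hx
  exact key k x hx hk

/-- The `2`-torsion of `ZMod (2^m)`, `m ≥ 1`. -/
theorem two_torsion_zmod (m : ℕ) (hm : 1 ≤ m) :
    ∃ h : ZMod (2 ^ m), h ≠ 0 ∧ h + h = 0 ∧ ∀ a : ZMod (2 ^ m), a + a = 0 → a = 0 ∨ a = h := by
  obtain ⟨n, rfl⟩ : ∃ n, m = n + 1 := ⟨m - 1, by omega⟩
  have hpos : 0 < 2 ^ n := by positivity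
  refine ⟨((2 ^ n : ℕ) : ZMod (2 ^ (n + 1))), ?_, ?_, ?_⟩
  · intro h0
    rw [ZMod.natCast_eq_zero_iff] at h0
    have h1 := Nat.le_of_dvd hpos h0
    rw [pow_succ] at h1
    omega
  · rw [← Nat.cast_add, ZMod.natCast_eq_zero_iff]
    exact ⟨1, by ring⟩
  · intro a ha
    have hval : ((a.val + a.val : ℕ) : ZMod (2 ^ (n + 1))) = 0 := by
      rw [Nat.cast_add, ZMod.natCast_zmod_val]; exact ha
    rw [ZMod.natCast_eq_zero_iff] at hval
    have hlt : a.val < 2 ^ (n + 1) := ZMod.val_lt a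
    have hav : ((a.val : ℕ) : ZMod (2 ^ (n + 1))) = a := ZMod.natCast_zmod_val a
    obtain ⟨c, hc⟩ := hval
    have e2 : 2 ^ (n + 1) = 2 ^ n * 2 := pow_succ 2 n
    generalize a.val = av at hc hlt hav
    rw [e2] at hc hlt
    have h1 : av = 2 ^ n * c := by
      have h5 : 2 * av = 2 * (2 ^ n * c) := by
        rw [two_mul, hc]; ring
      exact Nat.eq_of_mul_eq_mul_left (by norm_num) h5
    have hc2 : c < 2 := by
      by_contra hge
      push Not at hge
      have h2 : 2 ^ n * 2 ≤ 2 ^ n * c := Nat.mul_le_mul_left _ hge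
      omega
    interval_cases c
    · left
      rw [mul_zero] at h1
      rw [← hav, h1, Nat.cast_zero]
    · right
      rw [mul_one] at h1
      rw [← hav, h1]

/-- The elements of order at most `2` of a group isomorphic to `Z/2^m × Z/2^m`, `m ≥ 1`. -/
theorem two_torsion_struct (m : ℕ) (hm : 1 ≤ m) {H : Type*} [Group H]
    (e : H ≃* Multiplicative (ZMod (2 ^ m) × ZMod (2 ^ m))) :
    ∃ u v : H, u ≠ 1 ∧ v ≠ 1 ∧ u ≠ v ∧ u ^ 2 = 1 ∧ v ^ 2 = 1 ∧
      ∀ x : H, x ^ 2 = 1 → x = 1 ∨ x = u ∨ x = v ∨ x = u * v := by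
  obtain ⟨h, h0, hh, hall⟩ := two_torsion_zmod m hm
  refine ⟨e.symm (Multiplicative.ofAdd (h, 0)), e.symm (Multiplicative.ofAdd (0, h)), ?_, ?_, ?_, ?_, ?_, ?_⟩
  · intro hu
    have := congrArg e hu
    rw [MulEquiv.apply_symm_apply, map_one] at this
    have h1 : ((h, 0) : ZMod (2 ^ m) × ZMod (2 ^ m)) = 0 := this
    exact h0 (congrArg Prod.fst h1)
  · intro hu
    have := congrArg e hu
    rw [MulEquiv.apply_symm_apply, map_one] at this
    have h1 : ((0, h) : ZMod (2 ^ m) × ZMod (2 ^ m)) = 0 := this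
    exact h0 (congrArg Prod.snd h1)
  · intro hu
    have := congrArg e hu
    rw [MulEquiv.apply_symm_apply, MulEquiv.apply_symm_apply] at this
    have h1 : ((h, 0) : ZMod (2 ^ m) × ZMod (2 ^ m)) = (0, h) := this
    exact h0 (congrArg Prod.fst h1)
  · rw [← map_pow]
    have : (Multiplicative.ofAdd ((h, 0) : ZMod (2 ^ m) × ZMod (2 ^ m))) ^ 2 = 1 := by
      rw [← ofAdd_nsmul]
      show Multiplicative.ofAdd _ = Multiplicative.ofAdd 0
      congr 1
      ext
      · show (2 • ((h, 0) : ZMod (2 ^ m) × ZMod (2 ^ m))).1 = 0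
        rw [two_nsmul]; exact hh
      · simp
    rw [this, map_one]
  · rw [← map_pow]
    have : (Multiplicative.ofAdd ((0, h) : ZMod (2 ^ m) × ZMod (2 ^ m))) ^ 2 = 1 := by
      rw [← ofAdd_nsmul]
      show Multiplicative.ofAdd _ = Multiplicative.ofAdd 0
      congr 1
      ext
      · simp
      · show (2 • ((0, h) : ZMod (2 ^ m) × ZMod (2 ^ m))).2 = 0
        rw [two_nsmul]; exact hh
    rw [this, map_one]
  · intro x hx
    have h1 : (e x) ^ 2 = 1 := by rw [← map_pow, hx, map_one]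
    have h2 : (Multiplicative.toAdd (e x)) + (Multiplicative.toAdd (e x)) = 0 := by
      have := congrArg Multiplicative.toAdd h1
      rw [toAdd_pow, two_nsmul] at this
      exact this
    have ha := hall (Multiplicative.toAdd (e x)).1 (congrArg Prod.fst h2)
    have hb := hall (Multiplicative.toAdd (e x)).2 (congrArg Prod.snd h2)
    have hx' : x = e.symm (Multiplicative.ofAdd ((Multiplicative.toAdd (e x)).1, (Multiplicative.toAdd (e x)).2)) := by
      rw [MulEquiv.eq_symm_apply]; rfl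
    rcases ha with ha | ha <;> rcases hb with hb | hb
    · left
      rw [hx', ha, hb]
      exact map_one e.symm
    · right; right; left
      rw [hx', ha, hb]
    · right; left
      rw [hx', ha, hb]
    · right; right; right
      rw [hx', ha, hb, ← map_mul]
      congr 1
      show _ = Multiplicative.ofAdd (((h, 0) : ZMod (2 ^ m) × ZMod (2 ^ m)) + (0, h))
      simp

end Cfsg.Agent.Lib.Helper1
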