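import Mathlib

set_option autoImplicit false

namespace Cfsg.Agent.Lib.Helper1

theorem dvd_card_of_dvd_index_stabilizer {P X : Type*} [Group P] [MulAction P X] [Finite X]
    (d : ℕ) (h : ∀ x : X, d ∣ (MulAction.stabilizer P x).index) : d ∣ Nat.card X := by
  classical
  have : Fintype (Quotient (MulAction.orbitRel P X)) := Fintype.ofFinite _
  rw [Nat.card_congr (MulAction.selfEquivSigmaOrbits P X), Nat.card_sigma]
  apply Finset.dvd_sum
  intro ω _
  rw [Nat.card_coe_set_eq, ← MulAction.index_stabilizer]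
  exact h _

theorem pow_dvd_sylow_card {K : Type*} [Group K] [Finite K] {p : ℕ} [Fact p.Prime]
    (S : Sylow p K) (a : ℕ) (h : p ^ a ∣ Nat.card K) : p ^ a ∣ Nat.card S := by
  rw [S.card_eq_multiplicity]
  exact pow_dvd_pow p ((Nat.Prime.pow_dvd_iff_le_factorization Fact.out Nat.card_pos.ne').mp h)

theorem card_centralizer_conj {G : Type*} [Group G] (c g : G) :
    Nat.card (Subgroup.centralizer ({c * g * c⁻¹} : Set G)) =
      Nat.card (Subgroup.centralizer ({g} : Set G)) := by
  apply Nat.card_congr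
  refine
    { toFun := fun x => ⟨c⁻¹ * x * c, ?_⟩
      invFun := fun x => ⟨c * x * c⁻¹, ?_⟩
      left_inv := ?_
      right_inv := ?_ }
  · have hx := Subgroup.mem_centralizer_iff.mp x.2 (c * g * c⁻¹) rfl
    rw [Subgroup.mem_centralizer_iff]
    intro k hk
    rw [Set.mem_singleton_iff] at hk
    rw [hk]
    calc g * (c⁻¹ * x * c) = c⁻¹ * ((c * g * c⁻¹) * x) * c := by group
      _ = c⁻¹ * (x * (c * g * c⁻¹)) * c := by rw [hx]
      _ = c⁻¹ * x * c * g := by group
  · have hx := Subgroup.mem_centralizer_iff.mp x.2 g rfl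
    rw [Subgroup.mem_centralizer_iff]
    intro k hk
    rw [Set.mem_singleton_iff] at hk
    rw [hk]
    calc c * g * c⁻¹ * (c * x * c⁻¹) = c * (g * x) * c⁻¹ := by group
      _ = c * (x * g) * c⁻¹ := by rw [hx]
      _ = c * x * c⁻¹ * (c * g * c⁻¹) := by group
  · intro x; apply Subtype.ext; show c * (c⁻¹ * (x : G) * c) * c⁻¹ = x; group
  · intro x; apply Subtype.ext; show c⁻¹ * (c * (x : G) * c⁻¹) * c = x; group

end Cfsg.Agent.Lib.Helper1
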