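import Mathlib
import Cfsg.Agent.Lib.Lead.Basic
import Cfsg.Agent.Lib.Lead.Hall
import Cfsg.Agent.Lib.Helper5.ChermakDelgado

/-!
# Hall complement systems (helper1)

Coprime-index factorisation `G = A * B`, the index of a finite intersection of subgroups of
coprime prime-power indices, and simultaneous conjugacy of complement systems modulo a normal
subgroup.
-/

set_option autoImplicit false
open Pointwise

namespace Cfsg.Agent.Lib.Helper1

theorem index_inf_of_coprime {G : Type*} [Group G] [Finite G] (A B : Subgroup G)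
    (h : A.index.Coprime B.index) : (A ⊓ B).index = A.index * B.index := by
  apply le_antisymm Subgroup.index_inf_le
  apply Nat.le_of_dvd (Nat.pos_of_ne_zero Subgroup.index_ne_zero_of_finite)
  exact Nat.Coprime.mul_dvd_of_dvd_of_dvd h (Subgroup.index_dvd_of_le inf_le_left)
    (Subgroup.index_dvd_of_le inf_le_right)

theorem exists_mul_of_coprime_index {G : Type*} [Group G] [Finite G] (A B : Subgroup G)
    (h : A.index.Coprime B.index) (g : G) : ∃ a ∈ A, ∃ b ∈ B, g = a * b := by
  have h1 := Cfsg.Agent.Lib.Helper5.card_mul_set_mul_card_inf A B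
  have h2 := index_inf_of_coprime A B h
  have hA := Subgroup.card_mul_index A
  have hB := Subgroup.card_mul_index B
  have hAB := Subgroup.card_mul_index (A ⊓ B)
  have hG : 0 < Nat.card G := Nat.card_pos
  have hcard : Nat.card ((A : Set G) * (B : Set G) : Set G) = Nat.card G := by
    have e1 : Nat.card ((A : Set G) * (B : Set G) : Set G) * Nat.card G * Nat.card G
        = Nat.card G * Nat.card G * Nat.card G := by
      calc Nat.card ((A : Set G) * (B : Set G) : Set G) * Nat.card G * Nat.card G
          = Nat.card ((A : Set G) * (B : Set G) : Set G)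
              * (Nat.card (A ⊓ B : Subgroup G) * (A ⊓ B).index) * Nat.card G := by rw [hAB]
        _ = (Nat.card ((A : Set G) * (B : Set G) : Set G) * Nat.card (A ⊓ B : Subgroup G))
              * (A.index * B.index) * Nat.card G := by rw [h2]; ring
        _ = (Nat.card A * A.index) * (Nat.card B * B.index) * Nat.card G := by rw [h1]; ring
        _ = Nat.card G * Nat.card G * Nat.card G := by rw [hA, hB]
    have e2 := Nat.eq_of_mul_eq_mul_right hG e1
    exact Nat.eq_of_mul_eq_mul_right hG e2
  have huniv : ((A : Set G) * (B : Set G) : Set G) = Set.univ := by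
    apply Set.eq_of_subset_of_ncard_le (Set.subset_univ _)
    · rw [Set.ncard_univ, ← Nat.card_coe_set_eq, hcard]
  have hg : g ∈ ((A : Set G) * (B : Set G) : Set G) := by rw [huniv]; trivial
  obtain ⟨a, ha, b, hb, hab⟩ := Set.mem_mul.mp hg
  exact ⟨a, ha, b, hb, hab.symm⟩

/-- prime divisors of the index of a finite intersection of subgroups of prime-power index -/
theorem prime_dvd_index_finset_inf {G : Type*} [Group G] [Finite G] (F : Nat.Primes → Subgroup G)
    (hF : ∀ p : Nat.Primes, ∃ k, (F p).index = (p : ℕ) ^ k) (T : Finset Nat.Primes) :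
    ∀ r : ℕ, r.Prime → r ∣ (T.inf F).index → ∃ p ∈ T, (p : ℕ) = r := by
  classical
  induction T using Finset.induction_on with
  | empty =>
    intro r hr hdvd
    rw [Finset.inf_empty, Subgroup.index_top] at hdvd
    exact absurd (Nat.dvd_one.mp hdvd) hr.one_lt.ne'
  | insert q T hq ih =>
    intro r hr hdvd
    rw [Finset.inf_insert] at hdvd
    obtain ⟨k, hk⟩ := hF q
    have hcop : (F q).index.Coprime (T.inf F).index := by
      rw [hk]
      apply Nat.Coprime.pow_left
      rw [Nat.Prime.coprime_iff_not_dvd q.2]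
      intro hd
      obtain ⟨p, hpT, hpq⟩ := ih q q.2 hd
      have : p = q := Subtype.ext hpq
      exact hq (this ▸ hpT)
    rw [index_inf_of_coprime _ _ hcop, hk] at hdvd
    rcases (Nat.Prime.dvd_mul hr).mp hdvd with h1 | h1
    · have := hr.dvd_of_dvd_pow h1
      have h2 := (Nat.prime_dvd_prime_iff_eq hr q.2).mp this
      exact ⟨q, Finset.mem_insert_self q T, h2.symm⟩
    · obtain ⟨p, hpT, hpr⟩ := ih r hr h1
      exact ⟨p, Finset.mem_insert_of_mem hpT, hpr⟩

theorem coprime_index_finset_inf {G : Type*} [Group G] [Finite G] (F : Nat.Primes → Subgroup G)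
    (hF : ∀ p : Nat.Primes, ∃ k, (F p).index = (p : ℕ) ^ k) (T : Finset Nat.Primes)
    (q : Nat.Primes) (hq : q ∉ T) : (F q).index.Coprime (T.inf F).index := by
  obtain ⟨k, hk⟩ := hF q
  rw [hk]
  apply Nat.Coprime.pow_left
  rw [Nat.Prime.coprime_iff_not_dvd q.2]
  intro hd
  obtain ⟨p, hpT, hpq⟩ := prime_dvd_index_finset_inf F hF T q q.2 hd
  have : p = q := Subtype.ext hpq
  exact hq (this ▸ hpT)

/-- every element factors as (element of `F q`) * (element of `⨅ p ∈ T, F p`), `q ∉ T` -/
theorem exists_mul_finset_inf {G : Type*} [Group G] [Finite G] (F : Nat.Primes → Subgroup G)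
    (hF : ∀ p : Nat.Primes, ∃ k, (F p).index = (p : ℕ) ^ k) (T : Finset Nat.Primes)
    (q : Nat.Primes) (hq : q ∉ T) (g : G) :
    ∃ a ∈ F q, ∃ b : G, (∀ p ∈ T, b ∈ F p) ∧ g = a * b := by
  obtain ⟨a, ha, b, hb, hab⟩ :=
    exists_mul_of_coprime_index (F q) (T.inf F) (coprime_index_finset_inf F hF T q hq) g
  exact ⟨a, ha, b, fun p hp => (Finset.inf_le hp : T.inf F ≤ F p) hb, hab⟩

/-- a `p`-subgroup normalizing a Sylow `p`-subgroup lies in it -/
theorem le_sylow_of_le_normalizer {G : Type*} [Group G] {p : ℕ} [Fact p.Prime] (S : Sylow p G)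
    (B : Subgroup G) (hB : IsPGroup p B) (hBN : B ≤ Subgroup.normalizer ((S : Subgroup G) : Set G)) :
    B ≤ S := by
  have h1 : IsPGroup p (B ⊔ (S : Subgroup G) : Subgroup G) :=
    IsPGroup.to_sup_of_normal_right' hB S.2 hBN
  have h2 := S.is_maximal' h1 le_sup_right
  calc B ≤ B ⊔ (S : Subgroup G) := le_sup_left
    _ = S := h2

end Cfsg.Agent.Lib.Helper1
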